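import Cfsg.Agent.Lib.Helper5.QdU
import Cfsg.Prelude.Def_Transfer

set_option autoImplicit false

namespace Cfsg.Agent.Lib.Helper5

open Matrix Matrix.SpecialLinearGroup Cfsg.Agent.Lib.Helper12 Cfsg.Agent.Lib.Helper13
open scoped MatrixGroups

variable {p : ℕ} [hp : Fact p.Prime] {X : Type*} [Group X]

/-- the kernel of a nontrivial homomorphism to a group of prime order is maximal -/
theorem ker_coatom_zmod {E : Type*} [Group E] (φ : E →* Multiplicative (ZMod p)) (g : E)
    (hg : φ g ≠ 1) : IsCoatom φ.ker := by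
  constructor
  · intro h
    apply hg
    have : g ∈ φ.ker := h ▸ Subgroup.mem_top g
    exact this
  · intro K hK
    obtain ⟨k, hkK, hk⟩ := SetLike.exists_of_lt hK
    rw [eq_top_iff]
    intro e _
    have hk0 : Multiplicative.toAdd (φ k) ≠ 0 := fun h => hk h
    obtain ⟨n, hn⟩ := AffData.exists_nat_mul hk0 (Multiplicative.toAdd (φ e))
    have h1 : φ e = φ k ^ n := by
      apply Multiplicative.toAdd.injective
      rw [toAdd_pow, ← hn, nsmul_eq_mul]
    have h2 : e * (k ^ n)⁻¹ ∈ φ.ker := by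
      rw [MonoidHom.mem_ker, map_mul, map_inv, map_pow, h1, mul_inv_cancel]
    have := K.mul_mem (hK.le h2) (K.pow_mem hkK n)
    simpa using this

/-- the elements of `U` as a subtype -/
noncomputable def uu (D : AffData p X) (a b c : ZMod p) : D.U := ⟨D.u a b c, D.u_mem a b c⟩

theorem uu_surj (D : AffData p X) (x : D.U) : ∃ a b c, x = uu D a b c :=
  ⟨_, _, _, Subtype.ext (D.eq_u x.2)⟩

theorem uu_mul (D : AffData p X) (a b c a' b' c' : ZMod p) :
    uu D a b c * uu D a' b' c' = uu D (a + a') (b + b') (c + c' + a * b') :=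
  Subtype.ext (D.u_mul a b c a' b' c')

theorem uu_inv (D : AffData p X) (a b c : ZMod p) :
    (uu D a b c)⁻¹ = uu D (-a) (-b) (a * b - c) := Subtype.ext (D.u_inv a b c)

theorem uu_inj (D : AffData p X) {a b c a' b' c' : ZMod p} (h : uu D a b c = uu D a' b' c') :
    a = a' ∧ b = b' ∧ c = c' := D.u_inj (congrArg Subtype.val h)

theorem uu_zero (D : AffData p X) : uu D 0 0 0 = 1 := Subtype.ext D.u_zero

theorem uu_pow (D : AffData p X) (a b c : ZMod p) (n : ℕ) :
    uu D a b c ^ n = uu D (n * a) (n * b) (n * c + (n.choose 2 : ℕ) * (a * b)) := by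
  induction n with
  | zero => simp [uu_zero]
  | succ n ih =>
    rw [pow_succ, ih, uu_mul]
    have h : ((n + 1).choose 2 : ℕ) = n + n.choose 2 := by
      rw [Nat.choose_succ_succ' n 1, Nat.choose_one_right]
    rw [h]
    congr 1 <;> push_cast <;> ring

theorem uu_pow_p (D : AffData p X) (hp2 : p ≠ 2) (x : D.U) : x ^ p = 1 := by
  obtain ⟨a, b, c, rfl⟩ := uu_surj D x
  rw [uu_pow, CharP.cast_eq_zero]
  have h : ((p.choose 2 : ℕ) : ZMod p) = 0 := by
    rw [ZMod.natCast_eq_zero_iff]
    exact hp.out.dvd_choose_self (by norm_num) (lt_of_le_of_ne hp.out.two_le (Ne.symm hp2))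
  rw [h]
  simp [uu_zero]

noncomputable def uuEquiv (D : AffData p X) : ZMod p × ZMod p × ZMod p ≃ D.U :=
  Equiv.ofBijective (fun t => uu D t.1 t.2.1 t.2.2) ⟨by
    rintro ⟨a, b, c⟩ ⟨a', b', c'⟩ h
    obtain ⟨h1, h2, h3⟩ := uu_inj D h
    simp only at h1 h2 h3
    subst h1 h2 h3
    rfl, fun x => by
    obtain ⟨a, b, c, rfl⟩ := uu_surj D x
    exact ⟨(a, b, c), rfl⟩⟩

theorem card_U (D : AffData p X) : Nat.card D.U = p ^ 3 := by
  rw [← Nat.card_congr (uuEquiv D), Nat.card_prod, Nat.card_prod, Nat.card_zmod]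
  ring

theorem mem_center_U (D : AffData p X) (x : D.U) :
    x ∈ Subgroup.center D.U ↔ ∃ c, x = uu D 0 0 c := by
  constructor
  · intro hx
    obtain ⟨a, b, c, rfl⟩ := uu_surj D x
    rw [Subgroup.mem_center_iff] at hx
    have h1 := hx (uu D 1 0 0)
    have h2 := hx (uu D 0 1 0)
    rw [uu_mul, uu_mul] at h1 h2
    have h1' := (uu_inj D h1).2.2
    have h2' := (uu_inj D h2).2.2
    have hb : b = 0 := by linear_combination h1'
    have ha : a = 0 := by linear_combination -h2'
    subst ha hb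
    exact ⟨c, rfl⟩
  · rintro ⟨c, rfl⟩
    rw [Subgroup.mem_center_iff]
    intro y
    obtain ⟨a, b, c', rfl⟩ := uu_surj D y
    rw [uu_mul, uu_mul]
    congr 1 <;> ring

theorem card_center_U (D : AffData p X) : Nat.card (Subgroup.center D.U) = p := by
  have e : ZMod p ≃ Subgroup.center D.U :=
    Equiv.ofBijective (fun c => ⟨uu D 0 0 c, (mem_center_U D _).mpr ⟨c, rfl⟩⟩) ⟨by
      intro c c' h
      exact (uu_inj D (congrArg Subtype.val h)).2.2, fun x => by
      obtain ⟨c, hc⟩ := (mem_center_U D x.1).mp x.2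
      exact ⟨c, Subtype.ext hc.symm⟩⟩
  rw [← Nat.card_congr e, Nat.card_zmod]

theorem commutator_U (D : AffData p X) : commutator D.U = Subgroup.center D.U := by
  apply le_antisymm
  · rw [commutator_eq_closure, Subgroup.closure_le]
    rintro _ ⟨x, y, rfl⟩
    obtain ⟨a, b, c, rfl⟩ := uu_surj D x
    obtain ⟨a', b', c', rfl⟩ := uu_surj D y
    show _ ∈ Subgroup.center D.U
    rw [mem_center_U, commutatorElement_def, uu_inv, uu_inv, uu_mul, uu_mul, uu_mul]
    refine ⟨a * b' - a' * b, ?_⟩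
    congr 1 <;> ring
  · intro x hx
    obtain ⟨c, rfl⟩ := (mem_center_U D x).mp hx
    have h : uu D 0 0 c = commutatorElement.bracket (uu D c 0 0) (uu D 0 1 0) := by
      rw [commutatorElement_def, uu_inv, uu_inv, uu_mul, uu_mul, uu_mul]
      congr 1 <;> ring
    rw [h]
    exact Subgroup.commutator_mem_commutator (Subgroup.mem_top _) (Subgroup.mem_top _)

/-- coordinate homomorphisms -/
noncomputable def coordA (D : AffData p X) : D.U →* Multiplicative (ZMod p) where
  toFun x := Multiplicative.ofAdd (D.β x 0 1)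
  map_one' := by simp
  map_mul' x y := by
    obtain ⟨a, b, c, rfl⟩ := uu_surj D x
    obtain ⟨a', b', c', rfl⟩ := uu_surj D y
    rw [uu_mul]
    show Multiplicative.ofAdd (D.β (D.u _ _ _) 0 1) =
      Multiplicative.ofAdd (D.β (D.u _ _ _) 0 1) * Multiplicative.ofAdd (D.β (D.u _ _ _) 0 1)
    rw [AffData.β_u, AffData.β_u, AffData.β_u, tU_01, tU_01, tU_01]
    rfl

noncomputable def coordB (D : AffData p X) : D.U →* Multiplicative (ZMod p) where
  toFun x := Multiplicative.ofAdd (D.t1 x)
  map_one' := by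
    show Multiplicative.ofAdd (D.t1 1) = 1
    rw [← D.u_zero, AffData.t1_u]; rfl
  map_mul' x y := by
    obtain ⟨a, b, c, rfl⟩ := uu_surj D x
    obtain ⟨a', b', c', rfl⟩ := uu_surj D y
    rw [uu_mul]
    show Multiplicative.ofAdd (D.t1 (D.u _ _ _)) =
      Multiplicative.ofAdd (D.t1 (D.u _ _ _)) * Multiplicative.ofAdd (D.t1 (D.u _ _ _))
    rw [AffData.t1_u, AffData.t1_u, AffData.t1_u]
    rfl

theorem coordA_uu (D : AffData p X) (a b c : ZMod p) :
    coordA D (uu D a b c) = Multiplicative.ofAdd a := by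
  show Multiplicative.ofAdd (D.β (D.u _ _ _) 0 1) = _
  rw [AffData.β_u, tU_01]

theorem coordB_uu (D : AffData p X) (a b c : ZMod p) :
    coordB D (uu D a b c) = Multiplicative.ofAdd b := by
  show Multiplicative.ofAdd (D.t1 (D.u _ _ _)) = _
  rw [AffData.t1_u]

theorem frattini_U (D : AffData p X) : frattini D.U = Subgroup.center D.U := by
  haveI : Finite D.U := Nat.finite_of_card_ne_zero (by
    rw [card_U]; exact pow_ne_zero _ hp.out.ne_zero)
  apply le_antisymm
  · intro g hg
    obtain ⟨a, b, c, rfl⟩ := uu_surj D g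
    have ha : a = 0 := by
      by_contra hne
      have hne' : coordA D (uu D a b c) ≠ 1 := by
        rw [coordA_uu]; exact fun h => hne h
      have hc := ker_coatom_zmod (coordA D) _ hne'
      exact hne' (frattini_le_coatom hc hg)
    have hb : b = 0 := by
      by_contra hne
      have hne' : coordB D (uu D a b c) ≠ 1 := by
        rw [coordB_uu]; exact fun h => hne h
      have hc := ker_coatom_zmod (coordB D) _ hne'
      exact hne' (frattini_le_coatom hc hg)
    subst ha hb
    exact (mem_center_U D _).mpr ⟨c, rfl⟩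
  · rw [← commutator_U]
    exact Cfsg.Agent.Lib.Helper1.pgroup_commutator_le_frattini D.U_isPGroup

theorem extraspecial_U (D : AffData p X) : Cfsg.IsExtraspecial p D.U :=
  ⟨⟨D.U_isPGroup, frattini_U D, commutator_U D⟩, card_center_U D⟩

theorem exponent_U (D : AffData p X) (hp2 : p ≠ 2) : Monoid.exponent D.U = p := by
  have h1 : Monoid.exponent D.U ∣ p := Monoid.exponent_dvd_of_forall_pow_eq_one (uu_pow_p D hp2)
  rcases (Nat.dvd_prime hp.out).mp h1 with h | h
  · exfalso
    have h2 : uu D 0 0 1 = 1 := by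
      have := Monoid.pow_exponent_eq_one (uu D 0 0 1)
      rwa [h, pow_one] at this
    rw [← uu_zero D] at h2
    exact one_ne_zero (uu_inj D h2).2.2
  · exact h

theorem sylow_struct (D : AffData p X) (hp2 : p ≠ 2) (S' : Subgroup X) (h : S' = D.U) :
    Cfsg.IsExtraspecial p S' ∧ Nat.card S' = p ^ 3 ∧ Monoid.exponent S' = p := by
  subst h
  exact ⟨extraspecial_U D, card_U D, exponent_U D hp2⟩

end Cfsg.Agent.Lib.Helper5
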