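import Cfsg.Agent.Lib.Helper13.QdData

set_option autoImplicit false

namespace Cfsg.Agent.Lib.Helper5

open Matrix Matrix.SpecialLinearGroup Cfsg.Agent.Lib.Helper12 Cfsg.Agent.Lib.Helper13
open scoped MatrixGroups

variable {p : ℕ} [hp : Fact p.Prime] {X : Type*} [Group X]

theorem aff_t0_one (D : AffData p X) : D.t0 1 = 0 := by rw [← D.u_zero, AffData.t0_u]
theorem aff_t1_one (D : AffData p X) : D.t1 1 = 0 := by rw [← D.u_zero, AffData.t1_u]

/-- the affine action on the plane -/
def affEnd (D : AffData p X) : X →* Function.End (ZMod p × ZMod p) where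
  toFun x := fun v => (D.β x 0 0 * v.1 + D.β x 0 1 * v.2 + D.t0 x,
    D.β x 1 0 * v.1 + D.β x 1 1 * v.2 + D.t1 x)
  map_one' := by
    funext v
    show (_, _) = v
    rw [map_one, aff_t0_one, aff_t1_one]
    simp
  map_mul' x y := by
    funext v
    show (_, _) = (_, _)
    rw [map_mul, D.t0_mul, D.t1_mul, sl2_mul_00, sl2_mul_01, sl2_mul_10, sl2_mul_11]
    refine Prod.ext ?_ ?_ <;> simp only <;> ring

def affPerm (D : AffData p X) : X →* Equiv.Perm (ZMod p × ZMod p) := (affEnd D).toHomPerm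

theorem affPerm_apply (D : AffData p X) (x : X) (v : ZMod p × ZMod p) :
    affPerm D x v = (D.β x 0 0 * v.1 + D.β x 0 1 * v.2 + D.t0 x,
      D.β x 1 0 * v.1 + D.β x 1 1 * v.2 + D.t1 x) := rfl

theorem affPerm_injective (D : AffData p X) : Function.Injective (affPerm D) := by
  intro x y h
  have h0 := congrArg (fun f : Equiv.Perm (ZMod p × ZMod p) => f (0, 0)) h
  have h1 := congrArg (fun f : Equiv.Perm (ZMod p × ZMod p) => f (1, 0)) h
  have h2 := congrArg (fun f : Equiv.Perm (ZMod p × ZMod p) => f (0, 1)) h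
  simp only [affPerm_apply, mul_zero, mul_one, zero_add, add_zero, Prod.mk.injEq] at h0 h1 h2
  obtain ⟨a0, a1⟩ := h0
  obtain ⟨b0, b1⟩ := h1
  obtain ⟨c0, c1⟩ := h2
  rw [a0] at b0 c0
  rw [a1] at b1 c1
  apply D.ext _ _ _ a0 a1
  apply sl2_ext
  · exact add_right_cancel b0
  · exact add_right_cancel c0
  · exact add_right_cancel b1
  · exact add_right_cancel c1

noncomputable def affEquiv (D : AffData p X) : X ≃ SL(2, ZMod p) × ZMod p × ZMod p :=
  Equiv.ofBijective (fun x => (D.β x, D.t0 x, D.t1 x)) ⟨by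
    intro x y h
    simp only [Prod.mk.injEq] at h
    exact D.ext _ _ h.1 h.2.1 h.2.2, by
    rintro ⟨A, c, b⟩
    obtain ⟨x, h1, h2, h3⟩ := D.surj A c b
    exact ⟨x, by simp only [h1, h2, h3]⟩⟩

theorem aff_card (D : AffData p X) : Nat.card X = p * (p ^ 2 - 1) * (p * p) := by
  rw [Nat.card_congr (affEquiv D), Nat.card_prod, Nat.card_prod, Nat.card_zmod, card_SL2, ZMod.card]

theorem aff_two_iso {X : Type*} [Group X] (D : AffData 2 X) : Nonempty (X ≃* Equiv.Perm (Fin 4)) := by
  haveI : Fact (Nat.Prime 2) := ⟨Nat.prime_two⟩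
  have hc : Nat.card X = 24 := by rw [aff_card D]; norm_num
  have hc2 : Nat.card (Equiv.Perm (ZMod 2 × ZMod 2)) = 24 := by
    rw [Nat.card_perm, Nat.card_prod, Nat.card_zmod]; rfl
  have hb : Function.Bijective (affPerm D) :=
    (affPerm_injective D).bijective_of_nat_card_le (by rw [hc, hc2])
  have e0 : ZMod 2 × ZMod 2 ≃ Fin 4 := by
    apply Nonempty.some
    apply Finite.card_eq.mp
    rw [Nat.card_prod, Nat.card_zmod, Nat.card_fin]
  exact ⟨(MulEquiv.ofBijective (affPerm D) hb).trans e0.permCongrHom⟩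

end Cfsg.Agent.Lib.Helper5
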